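import Cfsg.Agent.Chars.Basic
import Cfsg.Agent.Chars.Induced.Gallagher
import Cfsg.Agent.Chars.Induced.Extension
import Cfsg.Agent.Chars.FrobSchur.Basic

/-!
# Real characters over a normal subgroup of odd index

Over a real irreducible character of a normal subgroup of odd index lies exactly one real
irreducible character.
-/

noncomputable section

open scoped ComplexConjugate

namespace CfsgLib.OddIndexReal

open Cfsg CfsgLib.Chars CfsgLib.Chars.Induced

universe u

variable {G : Type u} [Group G] [Fintype G] {N : Subgroup G} [N.Normal] [Fintype N]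

theorem mem_of_mul_self_mem (hodd : Odd N.index) {g : G} (h : g * g ∈ N) : g ∈ N := by
  rw [← QuotientGroup.eq_one_iff] at h ⊢
  rw [QuotientGroup.mk_mul] at h
  refine orderOf_eq_one_iff.1 (Nat.eq_one_of_dvd_coprimes ?_
    (orderOf_dvd_of_pow_eq_one (by rw [pow_two]; exact h)) dvd_rfl)
  exact Nat.coprime_two_left.2 (Odd.of_dvd_nat (N.index_eq_card ▸ hodd) (orderOf_dvd_natCard _))

/-- In a group of odd order only the identity is conjugate to its inverse. -/
theorem eq_one_of_conj_eq_inv {Q : Type u} [Group Q] [Finite Q] (hodd : Odd (Nat.card Q))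
    {x g : Q} (h : x * g * x⁻¹ = g⁻¹) : g = 1 := by
  obtain ⟨k, hk⟩ := hodd.of_dvd_nat (orderOf_dvd_natCard x)
  have h2 : Commute (x * x) g := by
    show x * x * g = g * (x * x)
    calc x * x * g = x * (x * g * x⁻¹) * x := by group
      _ = x * g⁻¹ * x := by rw [h]
      _ = (x * g * x⁻¹)⁻¹ * (x * x) := by group
      _ = g * (x * x) := by rw [h, inv_inv]
  have hx : (x * x) ^ (k + 1) = x := by
    rw [← pow_two, ← pow_mul, show 2 * (k + 1) = orderOf x + 1 by omega, pow_succ, pow_orderOf_eq_one,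
      one_mul]
  have h3 : Commute x g := hx ▸ h2.pow_left (k + 1)
  rw [h3.eq, mul_inv_cancel_right] at h
  refine orderOf_eq_one_iff.1 (Nat.eq_one_of_dvd_coprimes (Nat.coprime_two_left.2
    (hodd.of_dvd_nat (orderOf_dvd_natCard g))) (orderOf_dvd_of_pow_eq_one ?_) dvd_rfl)
  calc g ^ 2 = g * g := pow_two g
    _ = g⁻¹ * g := by rw [← h]
    _ = 1 := inv_mul_cancel g

/-- The idempotent of a normal subgroup, seen through a character: the convolution of an
irreducible character with an invariant function on a normal subgroup is a multiple of it. -/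
theorem sum_mul_apply_eq (χ : IrrCharacter G) {Ψ : G → ℂ} (hΨ : IsClassFunction G Ψ) :
    ∃ c : ℂ, (∀ g : G, ∑ m : N, Ψ m * (χ : G → ℂ) (g * m) = c * (χ : G → ℂ) g) ∧
      c * (χ : G → ℂ) 1 = ∑ m : N, Ψ m * (χ : G → ℂ) m := by
  obtain ⟨n, ρ, hρ, hchar⟩ := χ.2
  let A : Module.End ℂ (Fin n → ℂ) := ∑ m : N, Ψ m • ρ (m : G)
  have hA : ∀ x, A * ρ x = ρ x * A := by
    intro x
    simp only [A, Finset.sum_mul, Finset.mul_sum, smul_mul_assoc, mul_smul_comm, ← map_mul]
    refine Finset.sum_equiv (MulAut.conjNormal x⁻¹ : N ≃* N).toEquiv (by simp) fun m _ => ?_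
    simp only [MulEquiv.toEquiv_eq_coe, MulEquiv.coe_toEquiv, MulAut.conjNormal_apply, inv_inv]
    rw [← hΨ (x⁻¹ * m * x) x]
    congr 2 <;> group
  obtain ⟨c, hc⟩ := exists_eq_smul_one_of_commute ρ hρ A hA
  have key : ∀ g : G, ∑ m : N, Ψ m * (χ : G → ℂ) (g * m) = c * (χ : G → ℂ) g := by
    intro g
    have h1 := congrArg (fun B => LinearMap.trace ℂ _ (ρ g * B)) hc
    simp only [A, Finset.mul_sum, mul_smul_comm, ← map_mul, map_sum, map_smul, smul_eq_mul,
      mul_one] at h1
    rw [← hchar]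
    exact h1
  refine ⟨c, key, ?_⟩
  rw [← key 1]
  simp

variable (φ : IrrCharacter N)

theorem indFun_real (hreal : ∀ n : N, ((φ : N → ℂ) n).im = 0) (g : G) :
    conj (indFun N (φ : N → ℂ) g) = indFun N (φ : N → ℂ) g := by
  by_cases hg : g ∈ N
  · rw [show g = ((⟨g, hg⟩ : N) : G) from rfl, indFun_normal_mem, map_mul, map_inv₀, map_natCast,
      map_sum]
    congr 1
    exact Finset.sum_congr rfl fun x _ => Complex.conj_eq_iff_im.2 (hreal _)
  · rw [indFun_normal_notMem _ hg, map_zero]

theorem card_inertia_div_ne_zero :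
    ((Nat.card (inertia N (φ : N → ℂ)) : ℂ) / Nat.card N) ≠ 0 :=
  div_ne_zero (Nat.cast_ne_zero.2 Nat.card_pos.ne') (Nat.cast_ne_zero.2 Nat.card_pos.ne')

/-- The values of the column sums over the characters above `φ`. -/
theorem sum_sq_eq (hodd : Odd N.index) (hreal : ∀ n : N, ((φ : N → ℂ) n).im = 0) :
    ∑ χ : IrrCharacter G, (if mult (fun n : N => (χ : G → ℂ) n) φ ≠ 0 then
      ∑ g : G, (χ : G → ℂ) g * (χ : G → ℂ) g else 0) = Nat.card G := by
  classical
  set c : ℂ := (Nat.card (inertia N (φ : N → ℂ)) : ℂ) / Nat.card N with hc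
  have hc0 : c ≠ 0 := card_inertia_div_ne_zero φ
  set Ψ := indFun N (φ : N → ℂ) with hΨ
  have hΨc : IsClassFunction G Ψ := indFun_isClassFunction N _
  have hΨch := isCharacter_indFun N (CfsgLib.Chars.isCharacter_coe φ)
  let e : IrrCharacter G → ℕ := fun χ => mult (fun n : N => (χ : G → ℂ) n) φ
  let O := (Set.finite_range fun x : G => conjIrr x φ).toFinset
  -- values on `N`
  have hval : ∀ χ, e χ ≠ 0 → ∀ n : N, (χ : G → ℂ) n = (e χ : ℂ) / c * Ψ n := by
    intro χ hχ n
    have h := congrFun (clifford χ φ hχ) n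
    rw [Pi.smul_apply, Finset.sum_apply, smul_eq_mul] at h
    rw [h, hΨ, indFun_irr_normal_mem, ← hc]
    show (e χ : ℂ) * _ = _
    field_simp
  have he2 : ∑ χ, (e χ : ℂ) ^ 2 = c := by
    rw [hc, ← classInner_indFun_irr_self, classInner_eq_sum hΨc]
    refine Finset.sum_congr rfl fun χ _ => ?_
    rw [classInner_eq_mult hΨch, mult_indFun_irr, map_natCast, pow_two]
  have hsq : ∑ n : N, Ψ n * Ψ n = Nat.card G * c := by
    have h := classInner_indFun_irr_self (N := N) φ
    rw [← hc, classInner, inv_mul_eq_iff_eq_mul₀ (Nat.cast_ne_zero.2 Nat.card_pos.ne')] at h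
    rw [← h, ← Finset.sum_subtype (Finset.univ.filter (· ∈ N)) (by simp) (fun g => Ψ g * Ψ g),
      Finset.sum_filter]
    refine Finset.sum_congr rfl fun g _ => ?_
    split_ifs with hg
    · rw [indFun_real φ hreal g]
    · rw [indFun_normal_notMem _ hg, zero_mul]
  -- outside `N` the sum vanishes
  have hout : ∀ g : G, g ∉ N →
      ∑ χ, (if e χ ≠ 0 then (χ : G → ℂ) g * (χ : G → ℂ) g else 0) = 0 := by
    intro g hg
    choose d hd hd1 using fun χ : IrrCharacter G => sum_mul_apply_eq (N := N) χ hΨc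
    have hconst : ∃ K : ℂ, K ≠ 0 ∧ ∀ χ, d χ = if e χ ≠ 0 then K else 0 := by
      refine ⟨(Nat.card G : ℂ) / ∑ η ∈ O, (η : N → ℂ) 1, ?_, fun χ => ?_⟩
      · refine div_ne_zero (Nat.cast_ne_zero.2 Nat.card_pos.ne') ?_
        rw [← Finset.sum_congr rfl fun η _ => (coe_charDegree η), ← Nat.cast_sum, Nat.cast_ne_zero]
        exact (Finset.sum_pos (s := O) (fun η _ => charDegree_pos η) ⟨φ, (Set.Finite.mem_toFinset _).2
          ⟨1, conjIrr_one φ⟩⟩).ne'
      have h1 : ∑ m : N, Ψ m * (χ : G → ℂ) m = Nat.card G * (e χ : ℂ) := by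
        have h := classInner_irr_left_eq_mult hΨch χ
        rw [classInner, inv_mul_eq_iff_eq_mul₀ (Nat.cast_ne_zero.2 Nat.card_pos.ne'),
          mult_indFun_irr] at h
        rw [← h, ← Finset.sum_subtype (Finset.univ.filter (· ∈ N)) (by simp)
          (fun g => Ψ g * (χ : G → ℂ) g), Finset.sum_filter]
        refine Finset.sum_congr rfl fun g _ => ?_
        split_ifs with hg
        · rw [indFun_real φ hreal g, mul_comm]
        · rw [indFun_normal_notMem _ hg, map_zero, mul_zero]
      have h2 := hd1 χ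
      rw [h1] at h2
      split_ifs with hχ
      · have h3 := congrFun (clifford χ φ hχ) 1
        rw [Pi.smul_apply, Finset.sum_apply, smul_eq_mul, OneMemClass.coe_one] at h3
        rw [h3] at h2
        have he : (e χ : ℂ) ≠ 0 := Nat.cast_ne_zero.2 hχ
        have hO : ∑ η ∈ O, (η : N → ℂ) 1 ≠ 0 := fun h0 => by
          rw [h0, mul_zero] at h3
          exact CfsgLib.Chars.map_one_ne_zero χ h3
        rw [eq_div_iff hO]
        exact mul_right_cancel₀ he (by linear_combination h2)
      · rw [not_not.1 hχ, Nat.cast_zero, mul_zero, mul_eq_zero] at h2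
        exact h2.resolve_right (CfsgLib.Chars.map_one_ne_zero χ)
    obtain ⟨K, hK, hdK⟩ := hconst
    refine (mul_eq_zero.1 ?_).resolve_left hK
    rw [Finset.mul_sum]
    calc ∑ χ : IrrCharacter G, K * (if e χ ≠ 0 then (χ : G → ℂ) g * (χ : G → ℂ) g else 0)
        = ∑ χ : IrrCharacter G, (∑ m : N, Ψ m * (χ : G → ℂ) (g * m)) * (χ : G → ℂ) g :=
          Finset.sum_congr rfl fun χ _ => by
            rw [hd χ g, hdK χ]
            split_ifs <;> ring
      _ = ∑ m : N, Ψ m * ∑ χ : IrrCharacter G, (χ : G → ℂ) (g * m) * (χ : G → ℂ) (g⁻¹)⁻¹ := by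
          simp only [Finset.sum_mul, Finset.mul_sum, inv_inv, mul_assoc]
          exact Finset.sum_comm
      _ = 0 := by
          refine Finset.sum_eq_zero fun m _ => ?_
          rw [sum_irr_mul_map_inv, if_neg, mul_zero]
          intro hconj
          obtain ⟨x, hx⟩ := isConj_iff.1 hconj
          apply hg
          -- the coset of `g` would be real in a quotient of odd order
          have hq : (x : G ⧸ N) * g * (x : G ⧸ N)⁻¹ = (g : G ⧸ N)⁻¹ := by
            have h := congrArg (fun y : G => (y : G ⧸ N)) hx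
            simp only [QuotientGroup.mk_mul, QuotientGroup.mk_inv,
              (QuotientGroup.eq_one_iff (m : G)).2 m.2, mul_one] at h
            exact h
          rw [← QuotientGroup.eq_one_iff]
          exact eq_one_of_conj_eq_inv (N.index_eq_card ▸ hodd) hq
  calc _ = ∑ χ : IrrCharacter G, ∑ g : G,
        (if e χ ≠ 0 then (χ : G → ℂ) g * (χ : G → ℂ) g else 0) :=
        Finset.sum_congr rfl fun χ _ => by split_ifs <;> simp
    _ = ∑ g : G, if g ∈ N then
        ∑ χ : IrrCharacter G, (if e χ ≠ 0 then (χ : G → ℂ) g * (χ : G → ℂ) g else 0) else 0 := by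
        rw [Finset.sum_comm]
        exact Finset.sum_congr rfl fun g _ => by
          split_ifs with hg
          · rfl
          · exact hout g hg
    _ = ∑ n : N, (∑ χ : IrrCharacter G, (e χ : ℂ) ^ 2) / c ^ 2 * (Ψ n * Ψ n) := by
        rw [← Finset.sum_filter, Finset.sum_subtype (p := (· ∈ N)) _ (by simp)]
        refine Finset.sum_congr rfl fun n _ => ?_
        rw [Finset.sum_div, Finset.sum_mul]
        refine Finset.sum_congr rfl fun χ _ => ?_
        split_ifs with h
        · rw [hval χ h n]; ring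
        · rw [not_not.1 h]; simp
    _ = Nat.card G := by
        rw [← Finset.mul_sum, hsq, he2]
        field_simp

/-- The indicators of the characters over `φ`, weighted by multiplicities, add up to that of `φ`. -/
theorem sum_mult_mul_indicator (hodd : Odd N.index)
    (hφ : CfsgLib.FrobSchur.indicator (φ : N → ℂ) = 1) :
    ∑ χ : IrrCharacter G, (mult (fun n : N => (χ : G → ℂ) n) φ : ℂ) *
      CfsgLib.FrobSchur.indicator (χ : G → ℂ) = 1 := by
  classical
  set Ψ := indFun N (φ : N → ℂ) with hΨ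
  have h1 : CfsgLib.FrobSchur.indicator Ψ = 1 := by
    rw [CfsgLib.FrobSchur.indicator_def] at hφ ⊢
    rw [inv_mul_eq_iff_eq_mul₀ (Nat.cast_ne_zero.2 Nat.card_pos.ne'), mul_one] at hφ ⊢
    have h2 : ∑ g : G, Ψ (g * g) = ∑ n : N, Ψ ((n * n : N) : G) := by
      rw [← Finset.sum_subset (Finset.subset_univ (Finset.univ.filter (· ∈ N)))]
      · exact Finset.sum_subtype _ (by simp) (fun g => Ψ (g * g))
      · intro g _ hg
        exact indFun_normal_notMem _ fun h => hg (by simpa using mem_of_mul_self_mem hodd h)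
    rw [h2]
    simp only [hΨ, indFun_normal_mem]
    rw [← Finset.mul_sum, Finset.sum_comm]
    have h3 : ∀ x : G, ∑ n : N, conjFun N x (φ : N → ℂ) (n * n) = Nat.card N := by
      intro x
      rw [← hφ]
      refine Fintype.sum_equiv (MulAut.conjNormal x⁻¹ : N ≃* N).toEquiv _ _ fun n => ?_
      simp only [conjFun, MulEquiv.toEquiv_eq_coe, MulEquiv.coe_toEquiv, map_mul]
      congr 1
    rw [Finset.sum_congr rfl fun x _ => h3 x, Finset.sum_const, Finset.card_univ, nsmul_eq_mul,
      ← Nat.card_eq_fintype_card]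
    field_simp
  rw [← h1]
  have hΨch := isCharacter_indFun N (CfsgLib.Chars.isCharacter_coe φ)
  simp only [CfsgLib.FrobSchur.indicator_def, mul_left_comm (_ : ℂ) (Nat.card G : ℂ)⁻¹,
    ← Finset.mul_sum]
  congr 1
  simp only [Finset.mul_sum]
  rw [Finset.sum_comm]
  refine Finset.sum_congr rfl fun g _ => ?_
  rw [hΨ, eq_sum_classInner_mul (indFun_isClassFunction N (φ : N → ℂ)) (g * g)]
  exact Finset.sum_congr rfl fun χ _ => by rw [classInner_eq_mult hΨch, mult_indFun_irr]

/-- Exactly one irreducible character over `φ` has indicator one. -/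
theorem existsUnique_indicator_one (hodd : Odd N.index)
    (hφ : CfsgLib.FrobSchur.indicator (φ : N → ℂ) = 1) :
    ∃! χ : IrrCharacter G, CfsgLib.FrobSchur.indicator (χ : G → ℂ) = 1 ∧
      mult (fun n : N => (χ : G → ℂ) n) φ ≠ 0 := by
  classical
  have hreal := CfsgLib.FrobSchur.real_of_indicator_one φ.2 hφ
  let e : IrrCharacter G → ℕ := fun χ => mult (fun n : N => (χ : G → ℂ) n) φ
  set S := Finset.univ.filter fun χ : IrrCharacter G => e χ ≠ 0 ∧ ∀ g, ((χ : G → ℂ) g).im = 0
    with hS
  have hsq : ∀ χ : IrrCharacter G, ∑ g : G, (χ : G → ℂ) g * (χ : G → ℂ) g =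
      if ∀ g, ((χ : G → ℂ) g).im = 0 then (Nat.card G : ℂ) else 0 := by
    intro χ
    let χ' : IrrCharacter G := ⟨fun g => conj ((χ : G → ℂ) g),
      isIrrCharacter_of_classInner_self (isCharacter_conj (CfsgLib.Chars.isCharacter_coe χ)) (by
        rw [← map_one conj, ← CfsgLib.Chars.classInner_self χ]
        simp [classInner, map_sum])⟩
    have h : classInner (χ : G → ℂ) (χ' : G → ℂ) = (Nat.card G : ℂ)⁻¹ *
        ∑ g : G, (χ : G → ℂ) g * (χ : G → ℂ) g := by simp [classInner, χ']
    rw [eq_comm, inv_mul_eq_iff_eq_mul₀ (Nat.cast_ne_zero.2 Nat.card_pos.ne')] at h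
    rw [h]
    split_ifs with hr
    · rw [show χ' = χ from Subtype.ext (funext fun g => Complex.conj_eq_iff_im.2 (hr g)),
        CfsgLib.Chars.classInner_self, mul_one]
    · rw [classInner_of_ne, mul_zero]
      exact fun he => hr fun g =>
        Complex.conj_eq_iff_im.1 (congrFun (congrArg Subtype.val he) g).symm
  have hcard : (S.card : ℂ) = 1 := by
    have h := sum_sq_eq φ hodd hreal
    simp only [hsq, ← ite_and] at h
    rw [← Finset.sum_filter, Finset.sum_const, nsmul_eq_mul] at h
    exact mul_right_cancel₀ (Nat.cast_ne_zero.2 Nat.card_pos.ne') (h.trans (one_mul _).symm)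
  obtain ⟨χ₀, hχ₀⟩ := Finset.card_eq_one.1 (Nat.cast_eq_one.1 hcard)
  have hmem : χ₀ ∈ S := hχ₀ ▸ Finset.mem_singleton_self χ₀
  rw [hS, Finset.mem_filter] at hmem
  refine ⟨χ₀, ⟨?_, hmem.2.1⟩, fun χ hχ => ?_⟩
  · have h := sum_mult_mul_indicator φ hodd hφ
    rw [← Finset.sum_subset (Finset.subset_univ S), hχ₀, Finset.sum_singleton] at h
    · rcases CfsgLib.FrobSchur.irr_sq_eq_one_of_real χ₀.2 hmem.2.2 with h1 | h1
      · exact h1
      · rw [h1, mul_neg_one] at h
        exfalso
        have h2 : ((e χ₀ + 1 : ℕ) : ℂ) = 0 := by push_cast; linear_combination -h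
        exact Nat.succ_ne_zero _ (Nat.cast_eq_zero.1 h2)
    · intro χ _ hχ
      rw [hS, Finset.mem_filter, not_and, not_and, not_forall] at hχ
      by_cases he : e χ = 0
      · rw [show mult (fun n : N => (χ : G → ℂ) n) φ = 0 from he, Nat.cast_zero, zero_mul]
      · rw [(CfsgLib.FrobSchur.irr_eq_zero_iff χ.2).2 (hχ (Finset.mem_univ χ) he), mul_zero]
  · exact Finset.mem_singleton.1 (hχ₀ ▸ Finset.mem_filter.2 ⟨Finset.mem_univ χ, hχ.2,
      CfsgLib.FrobSchur.real_of_indicator_one χ.2 hχ.1⟩)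

end CfsgLib.OddIndexReal
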